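import Mathlib
import Cfsg.Agent.Lib.BlockP.Defect
import Cfsg.Agent.Lib.BlockT.Inflate2
import Cfsg.Agent.Lib.Blocks.Eigen

/-!
# Counting blocks through matrices congruent to the identity

* `card_le_of_mul_congr`: if `A * X` is congruent to the identity modulo the local ideal, the number of
  rows is at most the number of columns of `A`.
* `sum_classes_eq`: `∑_C e_B'(C) ω_χ(C) = [χ ∈ B']`.
-/

set_option linter.unusedSectionVars false
set_option autoImplicit false
set_option linter.style.haveILetI false
set_option linter.unusedVariables false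

namespace Cfsg.Agent.Lib.BlockT.Count

open Cfsg
open Cfsg.Agent.Lib.Blocks.Local Cfsg.Agent.Lib.Blocks.Central
open Cfsg.Agent.Lib.BlockT.Inflate2

universe u

section Matrix

variable {M : Ideal AlgInt} [hM : M.IsPrime] {ι κ : Type*} [Fintype ι] [Fintype κ] [DecidableEq ι]
  [DecidableEq κ]

/-- A product of matrices congruent to the identity forces an inequality of sizes. -/
theorem card_le_of_mul_congr (A : Matrix ι κ ℂ) (X : Matrix κ ι ℂ)
    (h₁ : ∀ i j, i ≠ j → MemLocalIdeal M ((A * X) i j)) (h₂ : ∀ i, MemLocalIdeal M ((A * X) i i - 1)) :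
    Fintype.card ι ≤ Fintype.card κ := by
  have hu := Cfsg.Agent.Lib.Blocks.Eigen.isUnit_of_congr_one h₁ h₂
  have h1 : (A * X).rank = Fintype.card ι := Matrix.rank_of_isUnit _ hu
  rw [← h1]
  exact (Matrix.rank_mul_le_left A X).trans (Matrix.rank_le_card_width A)

end Matrix

section Classes

variable {G : Type u} [Group G] [Fintype G] {M : Ideal AlgInt} [hM : M.IsPrime]

/-- The central character of a block idempotent as a sum over classes. -/
theorem sum_classes_eq [Fintype (IrrCharacter G)] [Fintype (ConjClasses G)] (χ : IrrCharacter G)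
    (B' : Set (IrrCharacter G)) [DecidablePred (· ∈ B')] :
    ∑ C : ConjClasses G, centralChar (χ : G → ℂ) C.out * blockCoeff B' C.out =
      if χ ∈ B' then 1 else 0 := by
  rw [← omegaHom_idem B' χ, omegaHom_eq_sum_classes]
  refine Finset.sum_congr rfl fun C _ => ?_
  rw [coeff_idem, mul_comm]

/-- Sum over a subtype of classes. -/
theorem sum_subtype_sub_mem [Fintype (ConjClasses G)] {p : ConjClasses G → Prop} [DecidablePred p]
    (f : ConjClasses G → ℂ) (hf : ∀ C, ¬ p C → MemLocalIdeal M (f C)) :
    MemLocalIdeal M (∑ C : {C // p C}, f C - ∑ C, f C) := by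
  rw [← Fintype.sum_subtype_add_sum_subtype p f]
  have e : ∀ a b : ℂ, a - (a + b) = - b := fun a b => by ring
  rw [e]
  exact memLocalIdeal_neg (memLocalIdeal_sum _ _ fun C _ => hf C C.2)

end Classes

end Cfsg.Agent.Lib.BlockT.Count
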