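import Mathlib
import Cfsg.Agent.Lib.BlockT.Count
import Cfsg.Agent.Lib.BlockT.Normal
import Cfsg.Agent.Lib.BlockT.NormalP
import Cfsg.Agent.Lib.BlockP.Reduce
import Cfsg.Agent.Lib.Blocks.Third
import Cfsg.Agent.S0940

/-!
# The number of blocks of a group with a normal Sylow subgroup

If `Q` is a normal Sylow `p`-subgroup of `H`, the `p`-regular elements of `C_H(Q)` form a normal
subgroup `K` of order prime to `p`, and the blocks of `H` are counted by the classes of `H`
inside `K`.
-/

set_option linter.unusedSectionVars false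
set_option autoImplicit false
set_option linter.style.haveILetI false
set_option linter.unusedVariables false

namespace Cfsg.Agent.Lib.BlockT.NormalSylow

open Cfsg MonoidAlgebra
open Cfsg.Agent.Lib.Char.Basic Cfsg.Agent.Lib.Char.Ortho Cfsg.Agent.Lib.Char.Complete
open Cfsg.Agent.Lib.Char.Induced
open Cfsg.Agent.Lib.BlockT.CharSum Cfsg.Agent.Lib.BlockT.Normal Cfsg.Agent.Lib.BlockT.NormalP
open Cfsg.Agent.Lib.BlockT.Count Cfsg.Agent.Lib.BlockT.Inflate2
open Cfsg.Agent.Lib.Blocks.Local Cfsg.Agent.Lib.Blocks.Central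
open scoped ComplexConjugate

universe u

variable {H : Type u} [Group H]

section Sub

variable [Finite H] {p : ℕ} [hp : Fact p.Prime]

/-- The regular elements of the centralizer of a normal Sylow subgroup form a subgroup. -/
theorem exists_regular_subgroup (Q : Sylow p H) (hQ : (Q : Subgroup H).Normal) :
    ∃ K : Subgroup H, ∀ x : H, x ∈ K ↔
      x ∈ Subgroup.centralizer ((Q : Subgroup H) : Set H) ∧ ¬ p ∣ orderOf x := by
  classical
  set C := Subgroup.centralizer ((Q : Subgroup H) : Set H) with hC
  haveI : Finite C := inferInstance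
  obtain ⟨S⟩ : Nonempty (Sylow p C) := inferInstance
  -- the `p`-elements of `H` lie in `Q`
  have hSQ : ∀ s ∈ S, ((s : C) : H) ∈ (Q : Subgroup H) := by
    intro s hs
    have h1 := Cfsg.Agent.Lib.Blocks.Third.orderOf_of_mem_isPGroup S.isPGroup' hs
    have h2 : ∃ j : ℕ, orderOf ((s : C) : H) = p ^ j := by
      rwa [Subgroup.orderOf_coe]
    refine Cfsg.Agent.Lib.Blocks.Third.mem_sylow_of_mem_normalizer Q h2 ?_
    rw [Subgroup.normalizer_eq_top_iff.mpr hQ]
    trivial
  have hcen : ∀ s ∈ S, ∀ c : C, s * c = c * s := by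
    intro s hs c
    apply Subtype.ext
    push_cast
    exact Subgroup.mem_centralizer_iff.mp c.2 _ (hSQ s hs)
  have hnorm : Subgroup.normalizer ((S : Subgroup C) : Set C) ≤ Subgroup.centralizer ((S : Subgroup C) : Set C) := by
    intro c _
    rw [Subgroup.mem_centralizer_iff]
    intro s hs
    exact hcen s hs c
  haveI := hp
  have hcomp := MonoidHom.ker_transferSylow_isComplement' S hnorm
  let T := (MonoidHom.transferSylow S hnorm)
  have hcard : Nat.card T.ker * Nat.card S = Nat.card C := hcomp.card_mul_card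
  have hS : Nat.card S = p ^ (Nat.card C).factorization p := S.card_eq_multiplicity
  have hnd : ¬ p ∣ Nat.card T.ker := by
    intro hd
    have hc2 : Nat.card C = Nat.card T.ker * p ^ (Nat.card C).factorization p := by
      rw [← hS]
      exact hcard.symm
    have h1 : p ^ ((Nat.card C).factorization p + 1) ∣ Nat.card C := by
      conv_rhs => rw [hc2]
      rw [pow_succ, mul_comm]
      exact mul_dvd_mul hd (dvd_refl _)
    have h2 := (hp.out.pow_dvd_iff_le_factorization Nat.card_pos.ne').mp h1
    omega
  refine ⟨T.ker.map C.subtype, fun x => ⟨?_, ?_⟩⟩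
  · rintro ⟨c, hc, rfl⟩
    refine ⟨c.2, fun hd => hnd ?_⟩
    have h1 : orderOf (⟨c, hc⟩ : T.ker) ∣ Nat.card T.ker := orderOf_dvd_natCard _
    have h2 : orderOf (⟨c, hc⟩ : T.ker) = orderOf c := Subgroup.orderOf_mk _ _
    have h3 : orderOf ((c : C) : H) = orderOf c := Subgroup.orderOf_coe c
    change p ∣ orderOf ((c : C) : H) at hd
    rw [h3, ← h2] at hd
    exact hd.trans h1
  · rintro ⟨hx, hreg⟩
    refine ⟨⟨x, hx⟩, ?_, rfl⟩
    rw [SetLike.mem_coe, MonoidHom.mem_ker]
    -- the image is a `p`-element of order prime to `p`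
    have h1 : orderOf (T ⟨x, hx⟩) ∣ orderOf (⟨x, hx⟩ : C) := orderOf_map_dvd T _
    have h2 : orderOf (⟨x, hx⟩ : C) = orderOf x := Subgroup.orderOf_mk _ _
    rw [h2] at h1
    obtain ⟨k, hk⟩ := S.isPGroup' (T ⟨x, hx⟩)
    have h3 := orderOf_dvd_of_pow_eq_one hk
    have h4 : Nat.Coprime (p ^ k) (orderOf x) := Nat.Coprime.pow_left k ((Nat.Prime.coprime_iff_not_dvd hp.out).mpr hreg)
    have h5 := Nat.Coprime.eq_one_of_dvd (Nat.Coprime.coprime_dvd_left h3 h4) h1
    exact orderOf_eq_one_iff.mp h5

theorem normal_of_forall (Q : Subgroup H) (hQ : Q.Normal) {K : Subgroup H}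
    (hK : ∀ x : H, x ∈ K ↔ x ∈ Subgroup.centralizer (Q : Set H) ∧ ¬ p ∣ orderOf x) : K.Normal := by
  haveI : (Subgroup.centralizer (Q : Set H)).Normal := Subgroup.normal_centralizer
  refine ⟨fun x hx t => ?_⟩
  rw [hK] at hx ⊢
  refine ⟨Subgroup.Normal.conj_mem inferInstance _ hx.1 t, ?_⟩
  have : orderOf (t * x * t⁻¹) = orderOf x := by
    simpa using (MulAut.conj t).orderOf_eq x
  rw [this]
  exact hx.2

theorem not_dvd_card_of_forall {Q : Subgroup H} {K : Subgroup H}
    (hK : ∀ x : H, x ∈ K ↔ x ∈ Subgroup.centralizer (Q : Set H) ∧ ¬ p ∣ orderOf x) : ¬ p ∣ Nat.card K := by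
  intro hd
  obtain ⟨x, hx⟩ := exists_prime_orderOf_dvd_card' p hd
  have h1 := ((hK x).mp x.2).2
  apply h1
  rw [Subgroup.orderOf_coe, hx]

end Sub

section Main

variable [Fintype H] {M : Ideal AlgInt} {p : ℕ} [hp : Fact p.Prime]

/-- The main lemma: a central element, with local coefficients, vanishing on the `p`-singular
elements and with all central characters in the local ideal, has coefficients in the local ideal on `K`. -/
theorem coeff_mem_of_omegaHom (hM : IsPModular p M) (Q : Subgroup H) (hQ : Q.Normal) (hpg : IsPGroup p Q)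
    {K : Subgroup H} [Fintype K]
    (hK : ∀ x : H, x ∈ K ↔ x ∈ Subgroup.centralizer (Q : Set H) ∧ ¬ p ∣ orderOf x)
    (z : Subalgebra.center ℂ (GA H)) (hl : ∀ g, MemLocalRing M ((z : GA H).coeff g))
    (hs : ∀ g : H, p ∣ orderOf g → (z : GA H).coeff g = 0)
    (hz : ∀ χ : IrrCharacter H, MemLocalIdeal M (omegaHom χ z)) (y : K) :
    MemLocalIdeal M ((z : GA H).coeff y) := by
  classical
  haveI := isPrime_of_pModular hM
  have hKN : K.Normal := normal_of_forall Q hQ hK
  have hnd := not_dvd_card_of_forall hK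
  have := Cfsg.Agent.Lib.Char.Ortho.finite_irrCharacter (G := H)
  letI := Fintype.ofFinite (IrrCharacter H)
  have := Cfsg.Agent.Lib.Char.Ortho.finite_irrCharacter (G := K)
  letI := Fintype.ofFinite (IrrCharacter K)
  letI := Fintype.ofFinite (ConjClasses H)
  -- the restriction of `z` to `K`
  let a : K → ℂ := fun y => (z : GA H).coeff y
  have ha : ∀ (t : H) (n : K), a ⟨t * n * t⁻¹, hKN.conj_mem n n.2 t⟩ = a n := fun t n =>
    isCentral_of_mem z n t
  -- `ω_χ` on the restriction
  have h1 : ∀ χ : IrrCharacter H, MemLocalIdeal M ((∑ n : K, a n * (χ : H → ℂ) n) / (χ : H → ℂ) 1) := by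
    intro χ
    have hz1 := hz χ
    have hχ1 := irr_one_ne_zero χ.2
    let z₂ : H → ℂ := fun g => if g ∈ K then 0 else (z : GA H).coeff g
    have hz₂ : ∀ g h : H, z₂ (h * g * h⁻¹) = z₂ g := by
      intro g h
      simp only [z₂]
      have e : h * g * h⁻¹ ∈ K ↔ g ∈ K := by
        constructor
        · intro hc
          have := hKN.conj_mem _ hc h⁻¹
          simpa [mul_assoc] using this
        · intro hc
          exact hKN.conj_mem _ hc h
      rw [isCentral_of_mem z g h]
      simp only [e]
    have hsum : ∑ g : H, (z : GA H).coeff g * (χ : H → ℂ) g =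
        ∑ n : K, a n * (χ : H → ℂ) n + ∑ g : H, z₂ g * (χ : H → ℂ) g := by
      rw [← sum_extendByZero_mul (N := K) a (fun g => (χ : H → ℂ) g), ← Finset.sum_add_distrib]
      refine Finset.sum_congr rfl fun g _ => ?_
      by_cases hg : g ∈ K
      · rw [extendByZero_of_mem K _ hg]
        simp [z₂, hg, a]
      · rw [extendByZero_of_not_mem K _ hg]
        simp [z₂, hg]
    -- the part outside `K`
    have h2 : MemLocalIdeal M ((∑ g : H, z₂ g * (χ : H → ℂ) g) / (χ : H → ℂ) 1) := by
      let z₂' : Subalgebra.center ℂ (GA H) := ⟨ofFun z₂, by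
        rw [mem_center_iff]
        intro g h
        simp only [coeff_ofFun]
        exact hz₂ g h⟩
      have e1 : omegaHom χ z₂' = (∑ g : H, z₂ g * (χ : H → ℂ) g) / (χ : H → ℂ) 1 := rfl
      rw [← e1, omegaHom_eq_sum_classes]
      refine memLocalIdeal_sum _ _ fun C _ => ?_
      have e2 : (z₂' : GA H).coeff C.out = z₂ C.out := rfl
      rw [e2]
      by_cases hCK : C.out ∈ K
      · simp only [z₂, if_pos hCK, zero_mul]
        exact memLocalIdeal_zero
      · simp only [z₂, if_neg hCK]
        by_cases hreg : p ∣ orderOf C.out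
        · rw [hs _ hreg, zero_mul]
          exact memLocalIdeal_zero
        · refine memLocalIdeal_mul_left (hl _) ?_
          refine Cfsg.Agent.Lib.BlockP.Reduce.centralChar_mem_of_no_conj hM.1 hM χ.2 Q hQ hpg _ ?_
          intro x hx hxC
          apply hCK
          rw [hK]
          refine ⟨?_, hreg⟩
          obtain ⟨c, rfl⟩ := isConj_iff.mp hx
          haveI : (Subgroup.centralizer (Q : Set H)).Normal := Subgroup.normal_centralizer
          have := Subgroup.Normal.conj_mem (inferInstance : (Subgroup.centralizer (Q : Set H)).Normal) _ hxC c⁻¹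
          simpa [mul_assoc] using this
    have h3 : omegaHom χ z = (∑ n : K, a n * (χ : H → ℂ) n) / (χ : H → ℂ) 1 +
        (∑ g : H, z₂ g * (χ : H → ℂ) g) / (χ : H → ℂ) 1 := by
      rw [omegaHom_apply, lin_apply, hsum, add_div]
    have h4 := memLocalIdeal_sub hz1 h2
    rw [h3, add_sub_cancel_right] at h4
    exact h4
  -- Fourier inversion on `K`
  let a' : Subalgebra.center ℂ (GA K) := ⟨ofFun a, by
    rw [mem_center_iff]
    intro g h
    simp only [coeff_ofFun]
    exact ha h g⟩
  have h5 : ∀ τ : IrrCharacter K, MemLocalIdeal M (omegaHom τ a') := by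
    intro τ
    obtain ⟨χ, hχ⟩ := exists_irr_over (G := H) τ
    have e1 : omegaHom τ a' = (∑ n : K, a n * (τ : K → ℂ) n) / (τ : K → ℂ) 1 := rfl
    rw [e1, ← sum_mul_eq_of_constituent hKN χ.2 τ.2 hχ a ha]
    exact h1 χ
  have e2 : (a' : GA K).coeff y = ∑ τ : IrrCharacter K, omegaHom τ a' * blockCoeff {τ} y :=
    Cfsg.Agent.S0940.coeff_central_eq a' y
  have e3 : (a' : GA K).coeff y = (z : GA H).coeff y := rfl
  rw [← e3, e2]
  refine memLocalIdeal_sum _ _ fun τ _ => memLocalIdeal_mul_right (h5 τ) ?_
  rw [Cfsg.Agent.S0940.blockCoeff_singleton]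
  refine memLocalRing_mul (memLocalRing_natCast_inv hM hnd) (memLocalRing_mul ?_ ?_)
  · exact memLocalRing_of_isIntegral (isIntegral_irr τ 1)
  · exact memLocalRing_of_isIntegral (map_isIntegral_int (starRingEnd ℂ) (isIntegral_irr τ y))

/-- The classes of `H` consisting of `p`-regular elements centralizing `Q`. -/
def KappaClass (p : ℕ) (Q : Subgroup H) : Type u :=
  {C : ConjClasses H // ∀ n : H, ConjClasses.mk n = C → ¬ p ∣ orderOf n ∧ n ∈ Subgroup.centralizer (Q : Set H)}

/-- The number of blocks of a group with a normal Sylow subgroup. -/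
theorem card_blocks_eq (hM : IsPModular p M) (Q : Sylow p H) (hQ : (Q : Subgroup H).Normal) :
    Nat.card {b : Set (IrrCharacter H) // IsPBlock M b} = Nat.card (KappaClass (H := H) p (Q : Subgroup H)) := by
  classical
  haveI := isPrime_of_pModular hM
  have := Cfsg.Agent.Lib.Char.Ortho.finite_irrCharacter (G := H)
  letI := Fintype.ofFinite (IrrCharacter H)
  letI := Fintype.ofFinite (ConjClasses H)
  have hpg : IsPGroup p (Q : Subgroup H) := Q.isPGroup'
  obtain ⟨K, hK⟩ := exists_regular_subgroup Q hQ
  letI : Fintype K := Fintype.ofFinite _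
  let ι := {b : Set (IrrCharacter H) // IsPBlock M b}
  let κ := {C : ConjClasses H // ∀ n : H, ConjClasses.mk n = C → ¬ p ∣ orderOf n ∧
    n ∈ Subgroup.centralizer ((Q : Subgroup H) : Set H)}
  letI : Fintype ι := Fintype.ofFinite _
  letI : Fintype κ := Subtype.fintype _
  have hne : ∀ i : ι, ∃ χ : IrrCharacter H, χ ∈ i.1 := fun i => isPBlock_nonempty i.2
  choose χ hχ using hne
  have hCn : (Subgroup.centralizer ((Q : Subgroup H) : Set H)).Normal := Subgroup.normal_centralizer
  let A : Matrix ι κ ℂ := fun i k => centralChar (χ i : H → ℂ) (k.1.out)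
  let X : Matrix κ ι ℂ := fun k j => blockCoeff j.1 (k.1.out)
  have hmem : ∀ i j : ι, i ≠ j → χ i ∉ j.1 := by
    intro i j hij hin
    apply hij
    apply Subtype.ext
    have h1 := isPBlock_eq_blockOf i.2 (hχ i)
    have h2 := isPBlock_eq_blockOf j.2 hin
    rw [h1, h2]
  -- `A X ≡ 1`
  have key : ∀ i j : ι, MemLocalIdeal M ((A * X) i j - if χ i ∈ j.1 then 1 else 0) := by
    intro i j
    rw [← sum_classes_eq (χ i) j.1]
    have h1 := sum_subtype_sub_mem (M := M) (p := fun C : ConjClasses H => ∀ n : H, ConjClasses.mk n = C →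
      ¬ p ∣ orderOf n ∧ n ∈ Subgroup.centralizer ((Q : Subgroup H) : Set H))
      (fun C => centralChar (χ i : H → ℂ) C.out * blockCoeff j.1 C.out) (by
        intro C hC
        by_cases hreg : p ∣ orderOf C.out
        · rw [blockCoeff_eq_zero hM j.2 hreg, mul_zero]
          exact memLocalIdeal_zero
        · refine memLocalIdeal_mul_right ?_ (memLocalRing_blockCoeff j.2 _)
          refine Cfsg.Agent.Lib.BlockP.Reduce.centralChar_mem_of_no_conj hM.1 hM (χ i).2 _ hQ hpg _ ?_
          intro x hx hxC
          apply hC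
          intro n hn
          have hnx : IsConj x n := by
            have h2 : IsConj C.out n := by
              rw [← ConjClasses.mk_eq_mk_iff_isConj, hn, out_isConj]
            exact hx.symm.trans h2
          obtain ⟨c, rfl⟩ := isConj_iff.mp hnx
          refine ⟨?_, hCn.conj_mem _ hxC c⟩
          rw [show orderOf (c * x * c⁻¹) = orderOf C.out from ?_]
          · exact hreg
          · have e1 : orderOf (c * x * c⁻¹) = orderOf x := by
              simpa using (MulAut.conj c).orderOf_eq x
            rw [e1]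
            exact orderOf_of_isConj hx)
    rw [Matrix.mul_apply]
    exact h1
  have hle1 := card_le_of_mul_congr (M := M) A X
    (fun i j hij => by
      have := key i j
      rwa [if_neg (hmem i j hij), sub_zero] at this)
    (fun i => by
      have := key i i
      rwa [if_pos (hχ i)] at this)
  -- `X A ≡ 1`
  have hout : ∀ k : κ, k.1.out ∈ K := by
    intro k
    rw [hK]
    have := k.2 k.1.out (out_isConj k.1)
    exact ⟨this.2, this.1⟩
  have key2 : ∀ k k' : κ, MemLocalIdeal M ((X * A) k k' - if k = k' then 1 else 0) := by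
    intro k k'
    set g := k'.1.out with hg
    have hreg : ¬ p ∣ orderOf g := ((hK g).mp (hout k')).2
    let z : Subalgebra.center ℂ (GA H) := classSum g - ∑ j : ι, (centralChar (χ j : H → ℂ) g) • idem j.1
    have hcoeff : ∀ h : H, (z : GA H).coeff h = ((classSum g : Subalgebra.center ℂ (GA H)) : GA H).coeff h -
        ∑ j : ι, centralChar (χ j : H → ℂ) g * blockCoeff j.1 h := by
      intro h
      have e1 : (z : GA H) = ((classSum g : Subalgebra.center ℂ (GA H)) : GA H) -
          ∑ j : ι, (centralChar (χ j : H → ℂ) g) • ((idem j.1 : Subalgebra.center ℂ (GA H)) : GA H) := by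
        simp only [z]
        push_cast
        rfl
      rw [e1, coeff_sub', coeff_sum']
      congr 1
    have hl : ∀ h, MemLocalRing M ((z : GA H).coeff h) := by
      intro h
      rw [hcoeff]
      refine memLocalRing_sub (classSum_mem_localCenter g h) (memLocalRing_sum _ _ fun j _ => ?_)
      exact memLocalRing_mul (memLocalRing_of_isIntegral (isIntegral_centralChar _ _))
        (memLocalRing_blockCoeff j.2 _)
    have hs : ∀ h : H, p ∣ orderOf h → (z : GA H).coeff h = 0 := by
      intro h hh
      rw [hcoeff, coeff_classSum, if_neg, Finset.sum_eq_zero, sub_zero]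
      · intro j _
        rw [blockCoeff_eq_zero hM j.2 hh, mul_zero]
      · intro hc
        apply hreg
        rw [← orderOf_of_isConj hc]
        exact hh
    have hω : ∀ ψ : IrrCharacter H, MemLocalIdeal M (omegaHom ψ z) := by
      intro ψ
      simp only [z]
      rw [map_sub, map_sum, omegaHom_classSum]
      simp only [map_smul, smul_eq_mul, omegaHom_idem]
      let j₀ : ι := ⟨blockOf M (ψ : H → ℂ), ψ, rfl⟩
      rw [Finset.sum_eq_single j₀]
      · rw [if_pos (mem_blockOf_self ψ), mul_one]
        have h1 : χ j₀ ∈ blockOf M (ψ : H → ℂ) := hχ j₀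
        exact h1 g
      · intro j _ hj
        have hnot : ψ ∉ j.1 := by
          intro hψ
          apply hj
          apply Subtype.ext
          exact (isPBlock_eq_blockOf j.2 hψ)
        rw [if_neg hnot, mul_zero]
      · intro h
        exact absurd (Finset.mem_univ _) h
    have h1 := coeff_mem_of_omegaHom hM (Q : Subgroup H) hQ hpg hK z hl hs hω ⟨k.1.out, hout k⟩
    simp only at h1
    rw [hcoeff, coeff_classSum] at h1
    have e2 : (X * A) k k' = ∑ j : ι, centralChar (χ j : H → ℂ) g * blockCoeff j.1 k.1.out := by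
      rw [Matrix.mul_apply]
      refine Finset.sum_congr rfl fun j _ => ?_
      exact mul_comm _ _
    rw [e2]
    have e3 : (if IsConj g k.1.out then (1 : ℂ) else 0) = if k = k' then 1 else 0 := by
      by_cases hkk : k = k'
      · subst hkk
        rw [if_pos rfl, if_pos (IsConj.refl _)]
      · rw [if_neg hkk, if_neg]
        intro hc
        apply hkk
        apply Subtype.ext
        have e4 := ConjClasses.mk_eq_mk_iff_isConj.mpr hc
        rw [hg, out_isConj, out_isConj] at e4
        exact e4.symm
    rw [e3] at h1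
    exact memLocalIdeal_sub_comm h1
  have hle2 := card_le_of_mul_congr (M := M) X A
    (fun k k' hkk => by
      have := key2 k k'
      rwa [if_neg hkk, sub_zero] at this)
    (fun k => by
      have := key2 k k
      rwa [if_pos rfl] at this)
  rw [Nat.card_eq_fintype_card]
  have e : Nat.card (KappaClass (H := H) p (Q : Subgroup H)) = Fintype.card κ := Nat.card_eq_fintype_card (α := κ)
  rw [e]
  exact le_antisymm hle1 hle2

end Main

end Cfsg.Agent.Lib.BlockT.NormalSylow
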